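import Mathlib
import Cfsg.Agent.Lib.ClassSize

/-!
# Representations spanned by the orbit of one vector
For a chain of normal subgroups with factors of order prime to the characteristic, or contained
in the stabilizer, the invariants are at most one-dimensional.
-/

namespace Cfsg.Agent.H77.OrbitModule

variable {k V H : Type*} [Field k] [AddCommGroup V] [Module k V] [Group H] (ρ : Representation k H V)

/-- The stabilizer of a vector. -/
def stab (a : V) : Subgroup H where
  carrier := {h | ρ h a = a}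
  one_mem' := by simp
  mul_mem' := fun {x y} hx hy => by
    change ρ (x * y) a = a
    rw [map_mul, Module.End.mul_apply, show ρ y a = a from hy, show ρ x a = a from hx]
  inv_mem' := fun {x} hx => by
    change ρ x⁻¹ a = a
    conv_lhs => rw [← (show ρ x a = a from hx)]
    rw [← Module.End.mul_apply, ← map_mul, inv_mul_cancel, map_one, Module.End.one_apply]

@[simp] theorem mem_stab {a : V} {h : H} : h ∈ stab ρ a ↔ ρ h a = a := Iff.rfl

/-- The orbit of a vector. -/
abbrev orb (a : V) : Set V := {u : V | ∃ h : H, ρ h a = u}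

theorem card_orb (a : V) : Nat.card (orb ρ a) = (stab ρ a).index := by
  rw [Subgroup.index_eq_card]
  refine (Nat.card_eq_of_bijective (Quotient.lift (fun h => (⟨ρ h a, h, rfl⟩ : orb ρ a)) ?_) ⟨?_, ?_⟩).symm
  · intro x y hxy
    have hxy' : x⁻¹ * y ∈ stab ρ a := QuotientGroup.leftRel_apply.1 hxy
    apply Subtype.ext
    change ρ x a = ρ y a
    conv_lhs => rw [← (mem_stab ρ).1 hxy']
    rw [← Module.End.mul_apply, ← map_mul, mul_inv_cancel_left]
  · intro x y
    induction x using QuotientGroup.induction_on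
    induction y using QuotientGroup.induction_on
    rename_i x y
    intro hxy
    have h : ρ x a = ρ y a := congrArg Subtype.val hxy
    rw [QuotientGroup.eq, mem_stab, map_mul, Module.End.mul_apply, ← h,
      ← Module.End.mul_apply, ← map_mul, inv_mul_cancel, map_one, Module.End.one_apply]
  · rintro ⟨_, h, rfl⟩
    exact ⟨(h : H ⧸ stab ρ a), rfl⟩

/-- `v` is fixed by `N`. -/
def Fx (N : Subgroup H) (v : V) : Prop := ∀ n ∈ N, ρ n v = v

variable {ρ}

theorem fx_orbit {N : Subgroup H} [hN : N.Normal] {v : V} (hv : Fx ρ N v) (h : H) :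
    Fx ρ N (ρ h v) := by
  intro n hn
  have h1 : ρ n (ρ h v) = ρ h (ρ (h⁻¹ * n * h) v) := by
    rw [← Module.End.mul_apply, ← map_mul, ← Module.End.mul_apply, ← map_mul]
    simp [mul_assoc]
  rw [h1, hv _ (by simpa using hN.conj_mem n hn h⁻¹)]

theorem fx_of_mem_span {N : Subgroup H} {S : Set V} (hS : ∀ x ∈ S, Fx ρ N x) {v : V}
    (hv : v ∈ Submodule.span k S) : Fx ρ N v := by
  intro n hn
  exact LinearMap.eqOn_span (f := ρ n) (g := LinearMap.id) (fun x hx => hS x hx n hn) hv

section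
variable {N : Subgroup H} [N.Normal] (ρ)

/-- A lift of a coset, as an operator. -/
noncomputable def R (q : H ⧸ N) : V →ₗ[k] V := ρ q.out

/-- The sum of the operators over a subgroup of the quotient. -/
noncomputable def T (K : Subgroup (H ⧸ N)) [Fintype K] : V →ₗ[k] V := ∑ q : K, R ρ (q : H ⧸ N)

variable {ρ}

omit [N.Normal] in
theorem R_mk {v : V} (hv : Fx ρ N v) (h : H) : R ρ (h : H ⧸ N) v = ρ h v := by
  obtain ⟨n, hn⟩ := QuotientGroup.mk_out_eq_mul N h
  rw [R, hn, map_mul, Module.End.mul_apply, hv n n.2]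

theorem R_mul {v : V} (hv : Fx ρ N v) (q r : H ⧸ N) : R ρ q (R ρ r v) = R ρ (q * r) v := by
  induction q using QuotientGroup.induction_on
  induction r using QuotientGroup.induction_on
  rename_i x y
  rw [R_mk hv, R_mk (fx_orbit hv y), ← QuotientGroup.mk_mul, R_mk hv, map_mul, Module.End.mul_apply]

theorem R_T {K : Subgroup (H ⧸ N)} [Fintype K] {v : V} (hv : Fx ρ N v) (x : K) :
    R ρ (x : H ⧸ N) (T ρ K v) = T ρ K v := by
  simp only [T, LinearMap.sum_apply, map_sum]
  refine Fintype.sum_equiv (Equiv.mulLeft x) _ _ fun q => ?_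
  rw [R_mul hv]; rfl

theorem T_R {K : Subgroup (H ⧸ N)} [Fintype K] {v : V} (hv : Fx ρ N v) (x : K) :
    T ρ K (R ρ (x : H ⧸ N) v) = T ρ K v := by
  simp only [T, LinearMap.sum_apply]
  refine Fintype.sum_equiv (Equiv.mulRight x) _ _ fun q => ?_
  rw [R_mul hv]; rfl

theorem T_conj {K : Subgroup (H ⧸ N)} [hK : K.Normal] [Fintype K] {v : V} (hv : Fx ρ N v) (h : H) :
    ρ h (T ρ K v) = T ρ K (ρ h v) := by
  simp only [T, LinearMap.sum_apply, map_sum]
  let e : K ≃ K :=
    { toFun := fun q => ⟨(h : H ⧸ N) * (q : H ⧸ N) * (h : H ⧸ N)⁻¹, hK.conj_mem _ q.2 _⟩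
      invFun := fun q => ⟨(h : H ⧸ N)⁻¹ * (q : H ⧸ N) * (h : H ⧸ N), by simpa using hK.conj_mem _ q.2 (h : H ⧸ N)⁻¹⟩
      left_inv := fun q => Subtype.ext (by simp [mul_assoc])
      right_inv := fun q => Subtype.ext (by simp [mul_assoc]) }
  refine Fintype.sum_equiv e _ _ fun q => ?_
  have h1 : Fx ρ N (R ρ (q : H ⧸ N) v) := fx_orbit hv _
  rw [← R_mk h1 h, R_mul hv, ← R_mk hv h, R_mul hv]
  congr 1
  change _ = R ρ ((h : H ⧸ N) * (q : H ⧸ N) * (h : H ⧸ N)⁻¹ * (h : H ⧸ N))
  rw [inv_mul_cancel_right]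

theorem T_eq_smul {K : Subgroup (H ⧸ N)} [Fintype K] {v : V} (hv : ∀ q : K, R ρ (q : H ⧸ N) v = v) :
    T ρ K v = (Fintype.card K : k) • v := by
  simp only [T, LinearMap.sum_apply, hv, Finset.sum_const, Finset.card_univ]
  rw [Nat.cast_smul_eq_nsmul]

theorem T_factor {K L : Subgroup (H ⧸ N)} [Fintype K] [Fintype L] (hKL : K ≤ L) {x : V}
    (hx : Fx ρ N x)
    (hfac : ∀ q : L, ∃ a : K, R ρ (q : H ⧸ N) x = R ρ (a : H ⧸ N) x) :
    (Fintype.card K : k) • T ρ L x = (Fintype.card L : k) • T ρ K x := by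
  have e1 : T ρ K (T ρ L x) = (Fintype.card K : k) • T ρ L x :=
    T_eq_smul fun q => R_T hx (⟨q, hKL q.2⟩ : L)
  rw [← e1]
  have : T ρ L x = ∑ q : L, R ρ (q : H ⧸ N) x := LinearMap.sum_apply _ _ _
  rw [this, map_sum]
  calc ∑ q : L, T ρ K (R ρ (q : H ⧸ N) x) = ∑ _q : L, T ρ K x :=
        Finset.sum_congr rfl fun q _ => by obtain ⟨a, ha⟩ := hfac q; rw [ha, T_R hx]
    _ = _ := by rw [Finset.sum_const, Finset.card_univ, Nat.cast_smul_eq_nsmul]

end

/-- The invariant carried along a normal series. -/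
def Good (ρ : Representation k H V) (a b : V) (N : Subgroup H) : Prop :=
  ∃ a' : V, stab ρ a ≤ stab ρ a' ∧ Fx ρ N a' ∧
    (∀ v : V, (∀ h : H, ρ h v = v) → v ∈ Submodule.span k (orb ρ a')) ∧
    ((stab ρ a).index.Coprime (stab ρ b).index → b ∈ Submodule.span k (orb ρ a'))

variable [Finite H]

omit [Finite H] in
theorem good_bot {a b : V} (hspan : Submodule.span k (orb ρ a) = ⊤) : Good ρ a b ⊥ := by
  refine ⟨a, le_rfl, fun n hn => ?_, fun v _ => hspan ▸ Submodule.mem_top, fun _ => hspan ▸ Submodule.mem_top⟩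
  rw [Subgroup.mem_bot.1 hn, map_one, Module.End.one_apply]

omit [Finite H] in
theorem good_of_sup {a b : V} {N M : Subgroup H} [M.Normal] (hM : M ≤ N ⊔ stab ρ a)
    (h : Good ρ a b N) : Good ρ a b M := by
  obtain ⟨a', h1, h2, h3, h4⟩ := h
  exact ⟨a', h1, fun m hm => (sup_le h2 h1 : N ⊔ stab ρ a ≤ stab ρ a') (hM hm), h3, h4⟩

theorem good_step {a b : V} {N M : Subgroup H} [N.Normal] [M.Normal] (hNM : N ≤ M)
    (hcard : (N.relIndex M : k) ≠ 0) (h : Good ρ a b N) : Good ρ a b M := by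
  classical
  obtain ⟨a', h1, h2, h3, h4⟩ := h
  let L : Subgroup (H ⧸ N) := M.map (QuotientGroup.mk' N)
  have hLn : L.Normal := Subgroup.Normal.map inferInstance _ (QuotientGroup.mk'_surjective N)
  have : Fintype L := Fintype.ofFinite L
  have hLc : Fintype.card L = N.relIndex M := by
    rw [← Nat.card_eq_fintype_card]
    conv_rhs => rw [← QuotientGroup.ker_mk' N, Subgroup.relIndex_ker]
  rw [← hLc] at hcard
  have hRmem : ∀ {v : V}, Fx ρ M v → ∀ q : L, R ρ (q : H ⧸ N) v = v := by
    rintro v hv ⟨_, m, hm, rfl⟩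
    exact (R_mk (fun n hn => hv n (hNM hn)) m).trans (hv m hm)
  have hTfix : ∀ {v : V}, Fx ρ N v → Fx ρ M (T ρ L v) := by
    intro v hv m hm
    have hT : Fx ρ N (T ρ L v) := by
      intro n hn
      simp only [T, LinearMap.sum_apply, map_sum]
      exact Finset.sum_congr rfl fun q _ => fx_orbit hv _ n hn
    rw [← R_mk hT m]
    exact R_T hv ⟨(m : H ⧸ N), Subgroup.mem_map_of_mem _ hm⟩
  have hTspan : ∀ v ∈ Submodule.span k (orb ρ a'), T ρ L v ∈ Submodule.span k (orb ρ (T ρ L a')) := by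
    intro v hv
    have := Submodule.mem_map_of_mem (f := T ρ L) hv
    rw [Submodule.map_span] at this
    refine Submodule.span_mono ?_ this
    rintro _ ⟨_, ⟨x, rfl⟩, rfl⟩
    exact ⟨x, T_conj h2 x⟩
  refine ⟨T ρ L a', fun x hx => ?_, hTfix h2, fun v hv => ?_, fun hcop => ?_⟩
  · change ρ x (T ρ L a') = T ρ L a'
    rw [T_conj h2, (mem_stab ρ).1 (h1 hx)]
  · have hT := hTspan v (h3 v hv)
    rw [T_eq_smul (hRmem (fun m _ => hv m))] at hT
    simpa [smul_smul, inv_mul_cancel₀ hcard] using Submodule.smul_mem _ ((Fintype.card L : k)⁻¹) hT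
  · have hb := h4 hcop
    have hbN : Fx ρ N b := fx_of_mem_span (by rintro _ ⟨x, rfl⟩; exact fx_orbit h2 x) hb
    let K : Subgroup (H ⧸ N) := (M ⊓ stab ρ b).map (QuotientGroup.mk' N)
    have : Fintype K := Fintype.ofFinite K
    have hKL : K ≤ L := Subgroup.map_mono inf_le_left
    have hKc : (Fintype.card K : k) ≠ 0 := by
      intro h0
      obtain ⟨c, hc⟩ := Subgroup.card_dvd_of_le hKL
      rw [Nat.card_eq_fintype_card, Nat.card_eq_fintype_card] at hc
      exact hcard (by rw [hc, Nat.cast_mul, h0, zero_mul])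
    have hKb : T ρ K b = (Fintype.card K : k) • b := by
      refine T_eq_smul ?_
      rintro ⟨_, y, hy, rfl⟩
      exact (R_mk hbN y).trans hy.2
    have key : (Fintype.card K : k) • T ρ L b = (Fintype.card L : k) • T ρ K b := by
      refine LinearMap.eqOn_span (f := (Fintype.card K : k) • T ρ L)
        (g := (Fintype.card L : k) • T ρ K) ?_ hb
      rintro _ ⟨x, rfl⟩
      simp only [LinearMap.smul_apply]
      refine T_factor hKL (fx_orbit h2 x) ?_
      rintro ⟨_, m, hm, rfl⟩
      set C : Subgroup H := stab ρ (ρ x a')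
      have hC : C.index ∣ (stab ρ a).index := by
        have hsub : (stab ρ a).map (MulAut.conj x).toMonoidHom ≤ C := by
          rintro _ ⟨y, hy, rfl⟩
          change ρ (x * y * x⁻¹) (ρ x a') = ρ x a'
          rw [← Module.End.mul_apply, ← map_mul, inv_mul_cancel_right, map_mul, Module.End.mul_apply,
            (mem_stab ρ).1 (h1 hy)]
        refine (Subgroup.index_dvd_of_le hsub).trans ?_
        rw [Subgroup.index_map_of_bijective (MulAut.conj x).bijective]
      have hco : ((stab ρ b).subgroupOf M).index.Coprime (C.subgroupOf M).index :=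
        Nat.Coprime.coprime_dvd_left (ClassSize.relIndex_dvd_index_of_normal_left M _)
          (Nat.Coprime.coprime_dvd_right ((ClassSize.relIndex_dvd_index_of_normal_left M C).trans hC)
            hcop.symm)
      obtain ⟨u, hu, w, hw, huw⟩ := ClassSize.mul_eq_univ_of_coprime_index hco ⟨m, hm⟩
      refine ⟨⟨((u : H) : H ⧸ N), (u : H), ⟨u.2, hu⟩, rfl⟩, ?_⟩
      have e : (u : H) * (w : H) = m := congrArg Subtype.val huw
      change R ρ (m : H ⧸ N) (ρ x a') = R ρ ((u : H) : H ⧸ N) (ρ x a')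
      rw [R_mk (fx_orbit h2 x), R_mk (fx_orbit h2 x), ← e, map_mul, Module.End.mul_apply,
        (show ρ (w : H) (ρ x a') = ρ x a' from hw)]
    rw [hKb, smul_comm (Fintype.card L : k)] at key
    have key2 : T ρ L b = (Fintype.card L : k) • b :=
      smul_right_injective V hKc key
    have hT := hTspan b hb
    rw [key2] at hT
    simpa [smul_smul, inv_mul_cancel₀ hcard] using Submodule.smul_mem _ ((Fintype.card L : k)⁻¹) hT

omit [Finite H] in
theorem conclusion {a : V} (h : ∀ b : V, Good ρ a b ⊤) :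
    Module.finrank k ρ.invariants ≤ 1 ∧
      ∀ b : V, (Nat.card (orb ρ a)).Coprime (Nat.card (orb ρ b)) → ∀ x : H, ρ x b = b := by
  refine ⟨?_, fun b hcop x => ?_⟩
  · obtain ⟨a', -, hfix, hinv, -⟩ := h a
    have hle : ρ.invariants ≤ Submodule.span k {a'} := by
      intro v hv
      refine Submodule.span_mono ?_ (hinv v hv)
      rintro _ ⟨y, rfl⟩
      exact hfix y trivial
    exact (Submodule.finrank_mono hle).trans
      ((finrank_span_le_card _).trans (by simp))
  · obtain ⟨a', -, hfix, -, hb⟩ := h b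
    rw [card_orb, card_orb] at hcop
    refine fx_of_mem_span (N := (⊤ : Subgroup H)) ?_ (hb hcop) x trivial
    rintro _ ⟨y, rfl⟩
    exact fx_orbit hfix y

end Cfsg.Agent.H77.OrbitModule
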