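import Mathlib

/-!
A group generated by its `p`-elements is not covered, as far as `p`-elements go, by `p` proper
subgroups.

For a minimal counterexample, the maximal sets of Sylow subgroups lying in one member of the
cover are permuted by the group, and there are at most `p` of them.
-/

set_option autoImplicit false
set_option linter.style.haveILetI false

namespace Cfsg.Agent.H77

open Subgroup
open scoped Pointwise

universe u v

variable {p : ℕ} [Fact p.Prime]

/-- A finite `p`-group lying in the union of at most `p` proper subgroups is impossible. -/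
theorem exists_eq_top_of_cover {G : Type u} [Group G] [Finite G] (hG : IsPGroup p G)
    {ι : Type v} [Fintype ι] (hι : Fintype.card ι ≤ p) (K : ι → Subgroup G)
    (hcov : ∀ g : G, ∃ i, g ∈ K i) : ∃ i, K i = ⊤ := by
  classical
  haveI := Fintype.ofFinite G
  by_contra hne
  push Not at hne
  have hsub : (Finset.univ : Finset G).erase 1 ⊆
      Finset.univ.biUnion fun i => (K i : Set G).toFinset.erase 1 := by
    intro g hg
    obtain ⟨i, hi⟩ := hcov g
    simp only [Finset.mem_biUnion, Finset.mem_erase, Set.mem_toFinset, Finset.mem_univ, true_and]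
    exact ⟨i, (Finset.mem_erase.1 hg).1, hi⟩
  have hle := (Finset.card_le_card hsub).trans Finset.card_biUnion_le
  rw [Finset.card_erase_of_mem (Finset.mem_univ 1), Finset.card_univ] at hle
  obtain ⟨n, hn⟩ := hG.exists_card_eq
  rw [Nat.card_eq_fintype_card] at hn
  have hp : 1 < p := (Fact.out : p.Prime).one_lt
  rcases n with _ | n
  · obtain ⟨i, -⟩ := hcov 1
    apply hne i
    haveI : Subsingleton G := Fintype.card_le_one_iff_subsingleton.1 (by simp [hn])
    exact Subsingleton.elim _ _
  have hK : ∀ i, ((K i : Set G).toFinset.erase 1).card ≤ p ^ n - 1 := fun i => by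
    rw [Finset.card_erase_of_mem (by simp), Set.toFinset_card, ← Nat.card_eq_fintype_card]
    have hd := Subgroup.card_subgroup_dvd_card (K i)
    rw [Nat.card_eq_fintype_card (α := G), hn] at hd
    obtain ⟨j, hj, hje⟩ := (Nat.dvd_prime_pow (Fact.out : p.Prime)).1 hd
    have hje' : Nat.card (K i : Set G) = p ^ j := hje
    rw [hje']
    have hjn : j ≠ n + 1 := by
      rintro rfl
      exact hne i (Subgroup.eq_top_of_card_eq _ (by rw [hje, Nat.card_eq_fintype_card, hn]))
    exact Nat.sub_le_sub_right (Nat.pow_le_pow_right (by omega) (by omega)) 1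
  have h2 := hle.trans ((Finset.sum_le_card_nsmul _ _ _ fun i _ => hK i).trans
    (le_of_eq (smul_eq_mul _ _)))
  rw [Finset.card_univ, hn, pow_succ'] at h2
  have h3 := h2.trans (Nat.mul_le_mul_right _ hι)
  have h4 : 1 ≤ p ^ n := Nat.one_le_pow _ _ (by omega)
  rw [Nat.mul_sub, mul_one] at h3
  have h5 : p ≤ p * p ^ n := Nat.le_mul_of_pos_right _ h4
  omega

theorem succ_le_card_of_cover (p : ℕ) [Fact p.Prime] {ι : Type v} [Fintype ι] :
    ∀ (n : ℕ) (G : Type u) [Group G] [Finite G], Nat.card G = n →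
      closure {g : G | ∃ k : ℕ, orderOf g = p ^ k} = ⊤ →
      ∀ K : ι → Subgroup G, (∀ i, K i ≠ ⊤) →
        (∀ g : G, (∃ k : ℕ, orderOf g = p ^ k) → ∃ i, g ∈ K i) → p + 1 ≤ Fintype.card ι := by
  intro n
  induction n using Nat.strong_induction_on with
  | _ n ih =>
    intro G _ _ hn hgen K hK hcov
    classical
    by_contra hlt
    have hι : Fintype.card ι ≤ p := by omega
    -- each Sylow subgroup lies in one member of the cover
    have hPK : ∀ P : Sylow p G, ∃ i, (P : Subgroup G) ≤ K i := fun P => by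
      obtain ⟨i, hi⟩ := exists_eq_top_of_cover P.2 hι (fun i => (K i).subgroupOf P) fun g => by
        obtain ⟨k, hk⟩ := IsPGroup.iff_orderOf.1 P.2 g
        obtain ⟨i, hi⟩ := hcov g ⟨k, by rw [Subgroup.orderOf_coe, hk]⟩
        exact ⟨i, hi⟩
      exact ⟨i, subgroupOf_eq_top.1 hi⟩
    -- so does a family of Sylow subgroups generating a proper subgroup
    have hT : ∀ T : Set (Sylow p G), (⨆ P ∈ T, (P : Subgroup G)) ≠ ⊤ →
        ∃ i, ∀ P ∈ T, (P : Subgroup G) ≤ K i := by
      intro T hT
      set H := ⨆ P ∈ T, (P : Subgroup G) with hH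
      by_contra hno
      push Not at hno
      refine hlt (ih _ ?_ H rfl ?_ (fun i => (K i).subgroupOf H) ?_ ?_)
      · rw [← hn]
        exact lt_of_le_of_ne (card_le_card_group H) fun h => hT (Subgroup.eq_top_of_card_eq _ h)
      · apply map_injective H.subtype_injective
        rw [← MonoidHom.range_eq_map, range_subtype]
        refine le_antisymm (map_subtype_le _) ?_
        conv_lhs => rw [hH]
        refine iSup₂_le fun P hP x hx => ?_
        refine ⟨⟨x, (le_iSup₂ (f := fun P (_ : P ∈ T) => (P : Subgroup G)) P hP) hx⟩,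
          subset_closure ?_, rfl⟩
        obtain ⟨k, hk⟩ := IsPGroup.iff_orderOf.1 P.2 ⟨x, hx⟩
        exact ⟨k, by rw [← Subgroup.orderOf_coe, ← hk, ← Subgroup.orderOf_coe]⟩
      · intro i hi
        obtain ⟨P, hP, hPi⟩ := hno i
        exact hPi ((le_iSup₂ (f := fun P (_ : P ∈ T) => (P : Subgroup G)) P hP).trans
          (subgroupOf_eq_top.1 hi))
      · intro g hg
        obtain ⟨k, hk⟩ := hg
        exact hcov g ⟨k, by rw [Subgroup.orderOf_coe, hk]⟩
    let S : ι → Set (Sylow p G) := fun i => {P | (P : Subgroup G) ≤ K i}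
    let M : Set (Set (Sylow p G)) := {T | Maximal (fun T => ∃ i, T = S i) T}
    have hSM : ∀ i, ∃ T ∈ M, S i ⊆ T := fun i => by
      obtain ⟨T, hT1, hT2⟩ :=
        (Set.toFinite {T : Set (Sylow p G) | ∃ j, T = S j}).exists_le_maximal
          (show S i ∈ {T : Set (Sylow p G) | ∃ j, T = S j} from ⟨i, rfl⟩)
      exact ⟨T, hT2, hT1⟩
    have hsmul : ∀ (g : G) (T : Set (Sylow p G)), T ∈ M → ∃ T' ∈ M, g • T ⊆ T' := by
      intro g T hTM
      obtain ⟨i, rfl⟩ := hTM.1
      have hne : (⨆ P ∈ g • S i, (P : Subgroup G)) ≠ ⊤ := by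
        intro htop
        apply hK i
        have hle : (⨆ P ∈ g • S i, (P : Subgroup G)) ≤ MulAut.conj g • K i := by
          refine iSup₂_le fun P hP => ?_
          obtain ⟨Q, hQ, rfl⟩ := hP
          exact pointwise_smul_le_pointwise_smul_iff.2 hQ
        rw [htop, top_le_iff] at hle
        apply Subgroup.eq_top_of_card_eq
        rw [Nat.card_congr (Subgroup.equivSMul (MulAut.conj g) (K i)).toEquiv, hle, card_top]
      obtain ⟨j, hj⟩ := hT _ hne
      obtain ⟨T', hT', hjT'⟩ := hSM j
      exact ⟨T', hT', fun P hP => hjT' (hj P hP)⟩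
    have hperm : ∀ (g : G) (T : Set (Sylow p G)), T ∈ M → g • T ∈ M := by
      intro g T hTM
      obtain ⟨T', hT', h1⟩ := hsmul g T hTM
      obtain ⟨T'', hT'', h2⟩ := hsmul g⁻¹ T' hT'
      have h3 : T ⊆ g⁻¹ • T' := Set.subset_smul_set_iff.2 (by simpa using h1)
      have h4 : T'' ⊆ T := hTM.2 hT''.1 (h3.trans h2)
      have h5 : g • T = T' :=
        Set.Subset.antisymm h1 (Set.subset_smul_set_iff.2 (h2.trans h4))
      exact h5 ▸ hT'
    have hM : Nat.card M ≤ p := by
      refine le_trans ?_ hι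
      rw [← Nat.card_eq_fintype_card]
      refine Nat.card_le_card_of_injective (fun T : M => Classical.choose T.2.1) fun a b h => ?_
      have ha := Classical.choose_spec a.2.1
      have hb := Classical.choose_spec b.2.1
      apply Subtype.ext
      rw [ha, hb]
      exact congrArg S h
    -- the elements fixing all maximal sets
    let N : Subgroup G :=
      { carrier := {g | ∀ T ∈ M, g • T = T}
        one_mem' := fun T _ => one_smul G T
        mul_mem' := fun {a b} ha hb T hTM => by rw [mul_smul, hb T hTM, ha T hTM]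
        inv_mem' := fun {a} ha T hTM => by rw [inv_smul_eq_iff, ha T hTM] }
    haveI hN : N.Normal := ⟨fun a ha g T hTM => by
      rw [mul_smul, mul_smul, ha _ (hperm g⁻¹ T hTM), smul_inv_smul]⟩
    obtain ⟨P₁⟩ : Nonempty (Sylow p G) := inferInstance
    obtain ⟨i₁, hi₁⟩ := hPK P₁
    obtain ⟨T₁, hT₁, hsub₁⟩ := hSM i₁
    have hP₁ : P₁ ∈ T₁ := hsub₁ hi₁
    suffices hall : ∀ P : Sylow p G, P ∈ T₁ by
      obtain ⟨i, rfl⟩ := hT₁.1
      apply hK i
      rw [← top_le_iff, ← hgen, closure_le]
      rintro g ⟨k, hk⟩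
      have hgp : IsPGroup p (zpowers g) :=
        IsPGroup.of_card (n := k) (by rw [Nat.card_zpowers, hk])
      obtain ⟨P, hP⟩ := hgp.exists_le_sylow
      exact hall P (hP (mem_zpowers g))
    by_contra hnall
    push Not at hnall
    obtain ⟨P₀, hP₀⟩ := hnall
    have hP₀N : (P₀ : Subgroup G) ≤ N := by
      intro x hx T hTM
      by_contra hmove
      obtain ⟨i₀, hi₀⟩ := hPK P₀
      obtain ⟨T₀, hT₀, hsub₀⟩ := hSM i₀
      have hP₀T : P₀ ∈ T₀ := hsub₀ hi₀
      have hxp : IsPGroup p (zpowers x) := P₀.2.to_le ((zpowers_le).2 hx)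
      have horb : MulAction.orbit (zpowers x) T ⊆ M := by
        rintro _ ⟨y, rfl⟩
        exact hperm (y : G) T hTM
      obtain ⟨a, ha⟩ := hxp.card_orbit T
      have ha0 : a ≠ 0 := by
        rintro rfl
        rw [pow_zero, Nat.card_eq_one_iff_unique] at ha
        haveI := ha.1
        exact hmove (congrArg Subtype.val (Subsingleton.elim
          (⟨x • T, ⟨⟨x, mem_zpowers x⟩, rfl⟩⟩ : MulAction.orbit (zpowers x) T)
          ⟨T, MulAction.mem_orbit_self T⟩))
      have heq : MulAction.orbit (zpowers x) T = M := by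
        refine Set.eq_of_subset_of_ncard_le horb ?_
        rw [← Nat.card_coe_set_eq, ← Nat.card_coe_set_eq, ha]
        exact hM.trans (Nat.le_self_pow ha0 p)
      have h0 : T₀ ∈ MulAction.orbit (zpowers x) T := heq ▸ hT₀
      have h1 : T₁ ∈ MulAction.orbit (zpowers x) T := heq ▸ hT₁
      obtain ⟨y, hy⟩ : T₁ ∈ MulAction.orbit (zpowers x) T₀ :=
        (MulAction.orbit_eq_iff.2 h0).symm ▸ h1
      apply hP₀
      rw [← hy]
      have hyP : (y : G) • P₀ = P₀ :=
        Sylow.smul_eq_iff_mem_normalizer.2 (le_normalizer ((zpowers_le).2 hx y.2))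
      exact ⟨P₀, hP₀T, hyP⟩
    have hNtop : N = ⊤ := by
      rw [← top_le_iff, ← hgen, closure_le]
      rintro g ⟨k, hk⟩
      have hgp : IsPGroup p (zpowers g) :=
        IsPGroup.of_card (n := k) (by rw [Nat.card_zpowers, hk])
      obtain ⟨P, hP⟩ := hgp.exists_le_sylow
      obtain ⟨c, rfl⟩ := MulAction.exists_smul_eq G P₀ P
      obtain ⟨z, hz, rfl⟩ := hP (mem_zpowers g)
      exact hN.conj_mem z (hP₀N hz) c
    obtain ⟨c, rfl⟩ := MulAction.exists_smul_eq G P₁ P₀
    have hc : c • T₁ = T₁ := (hNtop ▸ mem_top c : c ∈ N) T₁ hT₁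
    exact hP₀ (hc ▸ Set.smul_mem_smul_set hP₁)

end Cfsg.Agent.H77
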