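import Mathlib
import Cfsg.Agent.Transfer.Residual
import Cfsg.Agent.Transfer.Frobenius

/-!
Groups in which all real classes have the same 2-part and the real elements of a Sylow
2-subgroup are central in it.

The odd order theorem enters as a hypothesis, and only for the solvability conclusion.
-/

set_option autoImplicit false
set_option linter.style.haveILetI false

namespace Cfsg.Agent.H77

open Subgroup

universe u

variable {G : Type u} [Group G] [Finite G]

/-- In every Sylow 2-subgroup the real elements are central. -/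
theorem real_central_of_sylow (S : Sylow 2 G)
    (hS : ∀ s : ↥(S : Subgroup G), IsConj s s⁻¹ → s ∈ center ↥(S : Subgroup G))
    (P : Sylow 2 G) {x u v : G} (hx : x ∈ P) (hu : u ∈ P) (hv : v ∈ P)
    (hux : u * x * u⁻¹ = x⁻¹) : v * x = x * v := by
  obtain ⟨g, rfl⟩ := MulAction.exists_smul_eq G S P
  obtain ⟨x', hx', rfl⟩ := hx
  obtain ⟨u', hu', rfl⟩ := hu
  obtain ⟨v', hv', rfl⟩ := hv
  have h1 : u' * x' * u'⁻¹ = x'⁻¹ := (MulAut.conj g).injective (by
    rw [map_mul, map_mul, map_inv, map_inv]; exact hux)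
  have hc : IsConj (⟨x', hx'⟩ : ↥(S : Subgroup G)) (⟨x', hx'⟩ : ↥(S : Subgroup G))⁻¹ :=
    isConj_iff.2 ⟨⟨u', hu'⟩, Subtype.ext h1⟩
  have h2 : v' * x' = x' * v' :=
    congrArg Subtype.val (mem_center_iff.1 (hS _ hc) ⟨v', hv'⟩)
  have h3 := congrArg (MulAut.conj g) h2
  rw [map_mul, map_mul] at h3
  exact h3

variable (a : ℕ)
  (h : ∀ x : G, IsConj x x⁻¹ → x ∉ center G →
    ((centralizer ({x} : Set G)).index).factorization 2 = a)
  (S : Sylow 2 G)
  (hS : ∀ s : ↥(S : Subgroup G), IsConj s s⁻¹ → s ∈ center ↥(S : Subgroup G))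

include h hS in
theorem involutions_commute {s t : G} (hs : s * s = 1) (ht : t * t = 1) : s * t = t * s := by
  by_cases hz : t ∈ center G
  · exact mem_center_iff.1 hz s
  -- a non-central involution has a class of odd size
  have hp : IsPGroup 2 (zpowers t) := by
    refine IsPGroup.of_card (n := 1) ?_
    rw [Nat.card_zpowers, pow_one]
    refine orderOf_eq_prime (by rw [pow_two]; exact ht) ?_
    rintro rfl
    exact hz (one_mem _)
  obtain ⟨P, hP⟩ := hp.exists_le_sylow
  have htP : t ∈ P := hP (mem_zpowers t)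
  have hti : t⁻¹ = t := inv_eq_of_mul_eq_one_left ht
  have hle : (P : Subgroup G) ≤ centralizer ({t} : Set G) := fun v hv =>
    mem_centralizer_singleton_iff.2 <| real_central_of_sylow S hS P htP (one_mem _) hv
      (by rw [hti]; group)
  have hodd : ¬ 2 ∣ (centralizer ({t} : Set G)).index := fun h2 =>
    P.not_dvd_index (h2.trans (index_dvd_of_le hle))
  have ha : a = 0 := by
    rw [← h t (by rw [hti]) hz]
    exact Nat.factorization_eq_zero_of_not_dvd hodd
  -- so every product of two involutions is an involution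
  have hsi : s⁻¹ = s := inv_eq_of_mul_eq_one_left hs
  have hconj : s * (s * t) * s⁻¹ = (s * t)⁻¹ := by
    rw [mul_inv_rev, hsi, hti, ← mul_assoc s s t, hs, one_mul]
  suffices hsc : s * (s * t) = (s * t) * s by
    have : t * s = s * t := by
      calc t * s = (s * t)⁻¹ := by rw [mul_inv_rev, hsi, hti]
        _ = (s * t) * s * s⁻¹ := by rw [← hsc]; exact hconj.symm
        _ = s * t := by rw [mul_inv_cancel_right]
    exact this.symm
  by_cases hxz : s * t ∈ center G
  · exact mem_center_iff.1 hxz s
  set C := centralizer ({s * t} : Set G) with hC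
  have hi : ¬ 2 ∣ C.index := by
    intro h2
    have := h (s * t) (isConj_iff.2 ⟨s, hconj⟩) hxz
    rw [← hC, ha] at this
    exact (Nat.Prime.factorization_pos_of_dvd Nat.prime_two index_ne_zero_of_finite h2).ne' this
  have hsN : s ∈ normalizer (C : Set G) := by
    rw [mem_normalizer_iff]
    intro y
    rw [hC, mem_centralizer_singleton_iff, mem_centralizer_singleton_iff]
    have hx : s * (s * t)⁻¹ * s⁻¹ = s * t := by
      rw [mul_inv_rev, hsi, hti, ← mul_assoc, mul_assoc (s * t), hs, mul_one]
    constructor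
    · intro hy
      have hy' : Commute y (s * t)⁻¹ := Commute.inv_right hy
      have := hy'.map (MulAut.conj s).toMonoidHom
      simp only [MulEquiv.coe_toMonoidHom, MulAut.conj_apply] at this
      rwa [hx] at this
    · intro hy
      have hy' : Commute (s * y * s⁻¹) (s * (s * t)⁻¹ * s⁻¹) := by rw [hx]; exact hy
      have := hy'.map (MulAut.conj s⁻¹).toMonoidHom
      simp only [MulEquiv.coe_toMonoidHom, MulAut.conj_apply] at this
      simp only [inv_inv, mul_assoc, inv_mul_cancel_left, inv_mul_cancel, mul_one] at this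
      exact (Commute.inv_right_iff.1 this)
  haveI : (C.subgroupOf (normalizer (C : Set G))).Normal :=
    (normal_subgroupOf_iff_le_normalizer le_normalizer).2 le_rfl
  have hq : ((⟨s, hsN⟩ : normalizer (C : Set G)) :
      _ ⧸ C.subgroupOf (normalizer (C : Set G))) = 1 := by
    rw [← orderOf_eq_one_iff]
    refine Nat.eq_one_of_dvd_coprimes (Nat.coprime_two_left.2 ?_) ?_ (orderOf_dvd_natCard _)
    · refine Nat.odd_iff.2 (Nat.two_dvd_ne_zero.1 fun h2 => hi (h2.trans ?_))
      exact ⟨_, (relIndex_mul_index (le_normalizer (H := C))).symm⟩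
    · refine orderOf_dvd_of_pow_eq_one ?_
      rw [← QuotientGroup.mk_pow, pow_two, show (⟨s, hsN⟩ : normalizer (C : Set G)) * ⟨s, hsN⟩ = 1
        from Subtype.ext hs, QuotientGroup.mk_one]
  rw [QuotientGroup.eq_one_iff] at hq
  exact mem_centralizer_singleton_iff.1 hq

include h hS in
theorem exists_centralizer_complement : ∃ C : Subgroup G, C.Normal ∧ ¬ 2 ∣ C.index ∧
    (∀ P : Sylow 2 G, (P : Subgroup G) ≤ C) ∧ Cfsg.HasNormalPComplement 2 C := by
  let E : Subgroup G :=
    { carrier := {t | t * t = 1}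
      one_mem' := mul_one 1
      mul_mem' := fun {s t} hs ht => by
        show s * t * (s * t) = 1
        rw [mul_assoc, ← mul_assoc t s t, ← involutions_commute a h S hS hs ht, mul_assoc, ht,
          mul_one, hs]
      inv_mem' := fun {t} ht => by
        show t⁻¹ * t⁻¹ = 1
        rw [← mul_inv_rev, ht, inv_one] }
  have hEn : E.Normal := ⟨fun t ht g => by
    show g * t * g⁻¹ * (g * t * g⁻¹) = 1
    rw [conj_mul, ht, mul_one, mul_inv_cancel]⟩
  have hEp : IsPGroup 2 E := fun t => ⟨1, Subtype.ext
    (show ((t : G) ^ 2 ^ 1) = 1 by rw [pow_one, pow_two]; exact t.2)⟩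
  have hEP : ∀ P : Sylow 2 G, E ≤ (P : Subgroup G) := fun P =>
    le_sup_left.trans (P.is_maximal' (hEp.to_sup_of_normal_left P.2) le_sup_right).le
  have hPC : ∀ P : Sylow 2 G, (P : Subgroup G) ≤ centralizer (E : Set G) := fun P v hv t ht => by
    have hti : t⁻¹ = t := inv_eq_of_mul_eq_one_left (ht : t * t = 1)
    exact (real_central_of_sylow S hS P (hEP P ht) (one_mem _) hv (by rw [hti]; group)).symm
  refine ⟨centralizer (E : Set G), inferInstance,
    fun h2 => S.not_dvd_index (h2.trans (index_dvd_of_le (hPC S))), hPC, ?_⟩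
  refine Cfsg.Agent.Transfer.hasNormalPComplement_of_coprime_centralize
    fun Q hQ _ g hg hgo => mem_centralizer_iff.2 ?_
  obtain ⟨P, hP⟩ := (hQ.map (centralizer (E : Set G)).subtype).exists_le_sylow
  suffices ∀ (n : ℕ) (x : centralizer (E : Set G)), orderOf x = n → x ∈ Q → x * g = g * x from
    fun x hx => this _ x rfl hx
  intro n
  induction n using Nat.strong_induction_on with
  | _ n ih =>
    intro x hn hx
    rcases eq_or_ne x 1 with rfl | hx1
    · rw [one_mul, mul_one]
    obtain ⟨k, hk⟩ := IsPGroup.iff_orderOf.1 hQ ⟨x, hx⟩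
    rw [← Subgroup.orderOf_coe] at hk
    have hk0 : k ≠ 0 := by
      rintro rfl
      exact hx1 (orderOf_eq_one_iff.1 hk)
    have h2 : x ^ 2 * g = g * x ^ 2 := by
      refine ih _ ?_ _ rfl (pow_mem hx 2)
      subst hn
      rw [orderOf_pow, Nat.gcd_eq_right (hk ▸ dvd_pow_self 2 hk0)]
      exact Nat.div_lt_self (orderOf_pos x) one_lt_two
    have hy : g * x * g⁻¹ ∈ Q := (mem_normalizer_iff.1 hg x).1 hx
    set y := g * x * g⁻¹ with hyd
    set z := x⁻¹ * y with hzd
    have hy2 : y * y = x * x := by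
      rw [hyd, conj_mul, ← pow_two, ← h2, mul_inv_cancel_right]
    have hz : z ∈ Q := mul_mem (inv_mem hx) hy
    have hzx : x * z * x⁻¹ = z⁻¹ := by
      rw [hzd, mul_inv_cancel_left, mul_inv_rev, inv_inv, eq_inv_mul_iff_mul_eq, ← mul_assoc, hy2,
        mul_inv_cancel_right]
    have hmem : ∀ w : centralizer (E : Set G), w ∈ Q → (w : G) ∈ P :=
      fun w hw => hP (mem_map_of_mem _ hw)
    have hcomm : x * z = z * x := Subtype.ext (real_central_of_sylow S hS P (hmem z hz)
      (hmem x hx) (hmem x hx) (congrArg Subtype.val hzx))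
    have hzz : z * z = 1 := by
      rw [hcomm, mul_inv_cancel_right] at hzx
      rw [mul_eq_one_iff_eq_inv]
      exact hzx
    have hgz : Commute g z := Subtype.ext (g.2 (z : G) (congrArg Subtype.val hzz)).symm
    have hstep : g * x = x * (z * g) := by
      rw [hzd, ← mul_assoc x, mul_inv_cancel_left, hyd, inv_mul_cancel_right]
    have hzg : x * (z * g) ^ orderOf g = g ^ orderOf g * x :=
      (show SemiconjBy x (z * g) g from hstep.symm).pow_right _
    rw [hgz.symm.mul_pow, pow_orderOf_eq_one, one_mul, mul_one, mul_eq_left] at hzg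
    have hz1 : z = 1 := by
      rw [← orderOf_eq_one_iff]
      exact Nat.eq_one_of_dvd_coprimes hgo (orderOf_dvd_of_pow_eq_one hzg)
        (orderOf_dvd_of_pow_eq_one (by rw [pow_two]; exact hzz))
    rw [hz1, one_mul] at hstep
    exact hstep.symm

include h hS in
theorem solvable_and_complement_of_real_two_part
    (hodd : ∀ (K : Type u) [Group K] [Finite K], Odd (Nat.card K) → Group.IsSolvable K) :
    Group.IsSolvable G ∧ Cfsg.HasNormalPComplement 2
      ↥(closure {g : G | ∃ k : ℕ, orderOf g = 2 ^ k}) := by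
  obtain ⟨C, hCn, hCi, hPC, hnpc⟩ := exists_centralizer_complement a h S hS
  constructor
  · haveI hK : Group.IsSolvable (Cfsg.pResidual 2 C) := hodd _ (Nat.odd_iff.2
      (Nat.two_dvd_ne_zero.1 (Cfsg.Agent.Transfer.hasNormalPComplement_iff.1 hnpc)))
    obtain ⟨P⟩ : Nonempty (Sylow 2 C) := inferInstance
    have hp : IsPGroup 2 (C ⧸ Cfsg.pResidual 2 C) :=
      P.2.of_equiv (Cfsg.Agent.Transfer.isComplement'_pResidual hnpc P).symm.QuotientMulEquiv.symm
    haveI := hp.isNilpotent
    haveI : Group.IsSolvable C := Group.isSolvable_of_ker_le_range (Cfsg.pResidual 2 C).subtype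
      (QuotientGroup.mk' (Cfsg.pResidual 2 C)) (by rw [QuotientGroup.ker_mk', range_subtype])
    haveI : Group.IsSolvable (G ⧸ C) :=
      hodd _ (Nat.odd_iff.2 (Nat.two_dvd_ne_zero.1 hCi))
    exact Group.isSolvable_of_ker_le_range C.subtype (QuotientGroup.mk' C)
      (by rw [QuotientGroup.ker_mk', range_subtype])
  · have hle : closure {g : G | ∃ k : ℕ, orderOf g = 2 ^ k} ≤ C := by
      rw [closure_le]
      rintro g ⟨k, hk⟩
      have hgp : IsPGroup 2 (zpowers g) :=
        IsPGroup.of_card (n := k) (by rw [Nat.card_zpowers, hk])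
      obtain ⟨P, hP⟩ := hgp.exists_le_sylow
      exact hPC P (hP (mem_zpowers g))
    exact Cfsg.Agent.Transfer.hasNormalPComplement_of_injective _ (inclusion_injective hle) hnpc

end Cfsg.Agent.H77
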